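import Cfsg.Agent.BlockB.Gal
import Cfsg.Agent.SolvStr.Schmidt

/-! Characters fixed by a Galois automorphism inverting the roots of unity of odd order, over a
normal subgroup of odd index. -/

set_option autoImplicit false
open Cfsg CF.Char CF.Clifford
open scoped ComplexConjugate

namespace CF.BlockB

universe u

/-- The map `g ↦ g ^ k` is a bijection inverting the elements of odd order. -/
structure InvOdd (k : ℕ) (G : Type*) [Group G] : Prop where
  cop : k.Coprime (Nat.card G)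
  inv : ∀ g : G, Odd (orderOf g) → g ^ k = g⁻¹

variable {k : ℕ} {N : Type*} [Group N]

theorem InvOdd.sub {G : Type*} [Group G] (h : InvOdd k G) (H : Subgroup G) : InvOdd k H :=
  ⟨h.cop.coprime_dvd_right H.card_subgroup_dvd_card,
    fun g hg => Subtype.ext (h.inv g (by rwa [Subgroup.orderOf_coe]))⟩

section

variable {G : Type*} [Group G] [Finite G] (E : NormalEmb N G)

theorem odd_index_restrict (ho : Odd E.index) (T : Subgroup G) (hT : ∀ n, E.ι n ∈ T) :
    Odd (E.restrict T hT).index := by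
  rw [E.index_restrict]
  exact ho.of_dvd_nat (Subgroup.relIndex_dvd_index_of_le (by rintro _ ⟨n, rfl⟩; exact hT n))

theorem exists_step [CF.Hyp.FT] (ho : Odd E.index) (h1 : E.index ≠ 1) :
    ∃ K : Subgroup G, K.Normal ∧ (∀ n, E.ι n ∈ K) ∧ K.index.Prime ∧ Odd K.index := by
  have := CF.Hyp.isSolvable_of_odd (G := G ⧸ E.ι.range) ho
  have : Nontrivial (G ⧸ E.ι.range) := Finite.one_lt_card_iff_nontrivial.1
    (lt_of_le_of_ne E.index_pos h1.symm)
  obtain ⟨K, hK, -, h2⟩ := CF.SolvStr.exists_normal_index_prime (G := G ⧸ E.ι.range)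
  have h3 := K.index_comap_of_surjective (QuotientGroup.mk'_surjective E.ι.range)
  refine ⟨K.comap (QuotientGroup.mk' _), inferInstance, fun n => ?_, h3 ▸ h2,
    h3 ▸ ho.of_dvd_nat K.index_dvd_card⟩
  rw [Subgroup.mem_comap, QuotientGroup.mk'_apply, (QuotientGroup.eq_one_iff _).2 (MonoidHom.mem_range.2 ⟨n, rfl⟩)]
  exact K.one_mem

variable [Fintype N]

theorem fixed_ext_unique (hk : InvOdd k G) (ho : Odd E.index) {θ : N → ℂ}
    (hθ : IsIrrCharacter N θ) {χ : G → ℂ} (hχ : IsIrrCharacter G χ) (hext : ∀ n, χ (E.ι n) = θ n)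
    (h1 : ∀ g, χ (g ^ k) = χ g) {ψ : G → ℂ} (hψ : IsIrrCharacter G ψ)
    (h2 : classInner (fun n => ψ (E.ι n)) θ ≠ 0) (h3 : ∀ g, ψ (g ^ k) = ψ g) : ψ = χ := by
  have := Fintype.ofFinite G
  obtain ⟨β, hβ, h4, rfl⟩ := E.exists_mul_ext hθ (irr_isCharacter hχ) hext hψ h2
  have h5 := (E.range_le_charKer_iff (irr_isCharacter hβ)).2 h4
  have h6 := E.eq_of_mul_ext hθ (irr_isCharacter hχ) hext (irr_conj hβ) hβ
    (fun n => by simp [h4]) h4 (funext fun g => by
      rw [← h3 g]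
      simp only [Pi.mul_apply, h1, apply_pow_eq_inv hk.inv _ ho h5, irr_inv hβ])
  rw [Ord.irr_eq_one_of_real_of_odd_index _ ho hβ h5 fun g =>
    Complex.conj_eq_iff_im.1 (congrFun h6 g)]
  exact funext fun g => one_mul _

omit [Fintype N] in
theorem exists_fixed_ext_of_isCyclic [Finite N] (hk : InvOdd k G) (ho : Odd E.index)
    (hc : IsCyclic (G ⧸ E.ι.range)) {θ : N → ℂ} (hθ : IsIrrCharacter N θ) (hi : E.Invariant θ)
    (h1 : ∀ n, θ (n ^ k) = θ n) :
    ∃ χ, IsIrrCharacter G χ ∧ (∀ n, χ (E.ι n) = θ n) ∧ ∀ g, χ (g ^ k) = χ g := by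
  obtain ⟨χ, hχ, hext⟩ := E.exists_ext_of_isCyclic hθ hi hc
  obtain ⟨lam, h2, h3⟩ := E.exists_linear_of_ext hθ (irr_isCharacter hχ)
    (irr_isCharacter (irr_pow_coprime hχ hk.cop)) hext (fun n => by rw [← map_pow, hext, h1])
  obtain ⟨j, hj⟩ := ho
  have h4 : ∀ n, ((lam ^ (j + 1)) (E.ι n) : ℂ) = (lam ^ (j + 1)) 1 := fun n => by simp [h2]
  have h5 := (E.range_le_charKer_iff (irr_isCharacter (irr_linear (lam ^ (j + 1))))).2 h4
  refine ⟨_, E.irr_mul_ext hθ (irr_isCharacter hχ) hext (irr_linear (lam ^ (j + 1))) h4,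
    fun n => by simp [h2, hext], fun g => ?_⟩
  have h6 := DFunLike.congr_fun (E.linear_pow_index lam h2) g
  rw [Pi.mul_apply, Pi.mul_apply, apply_pow_eq_inv hk.inv _ ⟨j, hj⟩ h5, congrFun h3 g, ← mul_assoc,
    ← Units.val_mul]
  congr 2
  rw [hj, MonoidHom.pow_apply, MonoidHom.one_apply] at h6
  rw [map_inv, MonoidHom.pow_apply, inv_mul_eq_iff_eq_mul, ← pow_add,
    show j + 1 + (j + 1) = 2 * j + 1 + 1 by ring, pow_succ _ (2 * j + 1), h6, one_mul]

end

theorem exists_fixed_ext [CF.Hyp.FT] [Finite N] {θ : N → ℂ} (hθ : IsIrrCharacter N θ)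
    (h1 : ∀ n, θ (n ^ k) = θ n) {G : Type u} [Group G] [Finite G] (E : NormalEmb N G)
    (hk : InvOdd k G) (ho : Odd E.index) (hi : E.Invariant θ) :
    ∃ χ, IsIrrCharacter G χ ∧ (∀ n, χ (E.ι n) = θ n) ∧ ∀ g, χ (g ^ k) = χ g := by
  have := Fintype.ofFinite N
  induction hn : Nat.card G using Nat.strong_induction_on generalizing G with | _ n ih
  by_cases h2 : E.index = 1
  · exact exists_fixed_ext_of_isCyclic E hk ho
      (isCyclic_of_card_dvd_prime (hp := ⟨Nat.prime_two⟩) (h2 ▸ one_dvd 2 : E.index ∣ 2)) hθ hi h1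
  obtain ⟨K, hK, hNK, h3, h4⟩ := exists_step E ho h2
  have := Fintype.ofFinite K
  have ho' := odd_index_restrict E ho K hNK
  obtain ⟨η, hη, h5, h6⟩ := ih _ (hn ▸ CF.Solv.card_lt_of_ne_top (by rintro rfl; simp [Nat.not_prime_one] at h3))
    (E.restrict K hNK) (hk.sub K) ho' (fun g => hi g) rfl
  obtain ⟨χ, hχ, h7, h8⟩ := exists_fixed_ext_of_isCyclic (NormalEmb.sub K) hk
    (by rwa [NormalEmb.index_sub]) (isCyclic_of_prime_card (hp := ⟨h3⟩) (NormalEmb.index_sub K))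
    hη ((NormalEmb.invariant_iff_inertia _).2 (eq_top_iff.2 fun g _ => by
      refine fixed_ext_unique _ (hk.sub K) ho' hθ hη h5 h6 (NormalEmb.cj_irr _ hη g) ?_ fun x => ?_
      · rw [show (fun n => (NormalEmb.sub K).cj η g ((E.restrict K hNK).ι n)) = θ from
          funext fun n => ?_, inner_irr_self hθ]
        · exact one_ne_zero
        · rw [← congrFun (hi.cj_eq g) n, E.cj_apply, ← h5]
          exact congrArg η (Subtype.ext (E.ι_c g n).symm)
      · simp only [NormalEmb.cj_apply, map_pow, h6])) h6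
  exact ⟨χ, hχ, fun n => (h7 ⟨_, hNK n⟩).trans (h5 n), h8⟩

theorem existsUnique_fixed [CF.Hyp.FT] [Fintype N] {θ : N → ℂ} (hθ : IsIrrCharacter N θ)
    (h1 : ∀ n, θ (n ^ k) = θ n) {G : Type*} [Group G] [Finite G] (E : NormalEmb N G)
    (hk : InvOdd k G) (ho : Odd E.index) :
    ∃! χ, IsIrrCharacter G χ ∧ classInner (fun n => χ (E.ι n)) θ ≠ 0 ∧ ∀ g, χ (g ^ k) = χ g := by
  have := Fintype.ofFinite G
  set T := E.inertia θ
  have := Fintype.ofFinite T
  have hT : ∀ n, E.ι n ∈ T := E.ι_mem_inertia (irr_isClassFunction hθ)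
  have ho' := odd_index_restrict E ho T hT
  obtain ⟨η, hη, h2, h3⟩ := exists_fixed_ext hθ h1 (E.restrict T hT) (hk.sub T) ho'
    (E.invariant_restrict_inertia hT)
  have h4 : classInner (fun n => η ((E.restrict T hT).ι n)) θ ≠ 0 := by
    rw [funext h2, inner_irr_self hθ]; exact one_ne_zero
  have h5 : E.inertia θ ≤ T.subtype.range := by rw [Subgroup.range_subtype]
  refine ⟨ind T.subtype η, ⟨E.corr_irr _ _ T.subtype_injective (fun _ => rfl) hθ h5 hη h4, ?_,
    fun g => ?_⟩, fun χ ⟨hχ, h6, h7⟩ => ?_⟩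
  · rwa [E.corr_inner _ _ T.subtype_injective (fun _ => rfl) hθ h5 hη h4]
  · rw [ind_subtype, ← congrFun (indFun_pow hk.cop T η) g, funext h3]
  · obtain ⟨ψ, hψ, rfl, h8⟩ := E.corr_surj (E.restrict T hT) _ T.subtype_injective (fun _ => rfl)
      hθ h5 hχ h6
    rw [← h8] at h6
    rw [fixed_ext_unique _ (hk.sub T) ho' hθ hη h2 h3 hψ h6 (congrFun (E.corr_inj _ _
      T.subtype_injective (fun _ => rfl) hθ h5 (irr_pow_coprime hψ (hk.sub T).cop) hψ ?_ h6 ?_))]
    · rwa [← inner_res_pow _ (hk.sub T).cop, funext h1] at h6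
    · rw [ind_subtype, indFun_pow hk.cop, ← ind_subtype, funext h7]

section

variable {G : Type*} [Group G] [Finite G] (E : NormalEmb N G) [Fintype N]

theorem ext_of_index_dvd_prime {q : ℕ} (hq : q.Prime) (h : E.index ∣ q) {θ : N → ℂ}
    (hθ : IsIrrCharacter N θ) (hi : E.Invariant θ) {χ : G → ℂ} (hχ : IsIrrCharacter G χ)
    (h1 : classInner (fun n => χ (E.ι n)) θ ≠ 0) (n : N) : χ (E.ι n) = θ n := by
  have := Fintype.ofFinite G
  obtain ⟨e, -, he⟩ := E.exists_nat_res_eq_of_invariant hχ hθ hi h1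
  have h2 := (E.sq_le_index hχ hθ he).trans (Nat.le_of_dvd hq.pos h)
  rcases (Nat.dvd_prime hq).1 ((E.ramification_dvd_index hθ hχ he).trans h) with rfl | rfl
  · simpa using congrFun he n
  · nlinarith [hq.two_le]

theorem eq_of_over_of_inertia_le {θ : N → ℂ} (hθ : IsIrrCharacter N θ)
    (h : E.inertia θ ≤ E.ι.range) {χ ψ : G → ℂ} (hχ : IsIrrCharacter G χ) (hψ : IsIrrCharacter G ψ)
    (h1 : classInner (fun n => χ (E.ι n)) θ ≠ 0) (h2 : classInner (fun n => ψ (E.ι n)) θ ≠ 0) :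
    χ = ψ := by
  have := Fintype.ofFinite G
  have h3 := (E.ind_irr_iff hθ).2 h
  rw [← inner_ind_right _ _ (irr_isClassFunction hχ)] at h1
  rw [← inner_ind_right _ _ (irr_isClassFunction hψ)] at h2
  exact (by_contra fun h => h1 (inner_irr_ne hχ h3 h) : χ = _).trans
    (by_contra fun h => h2 (inner_irr_ne hψ h3 h) : ψ = _).symm

theorem mem_pb_of_fixed_prime {M : Ideal AlgInt} (hM : IsPModular 2 M) (hk : InvOdd k G)
    {q : ℕ} (hq : q.Prime) (h : E.index ∣ q) (ho : Odd E.index) {θ : IrrCharacter N}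
    (hθ : θ ∈ principalBlock M N) {χ : IrrCharacter G}
    (h1 : classInner (fun n => (χ : G → ℂ) (E.ι n)) θ ≠ 0)
    (h2 : ∀ g, (χ : G → ℂ) (g ^ k) = (χ : G → ℂ) g) : χ ∈ principalBlock M G := by
  obtain ⟨ψ, h3, h4⟩ := exists_over_pb_emb E hM hθ
  by_cases hi : E.Invariant (θ : N → ℂ)
  · obtain ⟨lam, h5, h6⟩ := E.exists_linear_of_ext θ.2 (irr_isCharacter χ.2) (irr_isCharacter ψ.2)
      (ext_of_index_dvd_prime E hq h θ.2 hi χ.2 h1) (ext_of_index_dvd_prime E hq h θ.2 hi ψ.2 h4)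
    have := Fintype.ofFinite G
    refine mem_pb_of_mul_of_inv_mul hM (by simpa [← even_iff_two_dvd] using ho) ho
      (E.linear_pow_index lam h5) h3 (gal_mem_pb hM hk.cop h3) (congrFun h6) fun g => ?_
    rw [gal_apply, h6, ← apply_pow_eq_inv hk.inv _ ho ((E.range_le_charKer_iff
      (irr_isCharacter (irr_linear lam))).2 fun n => by simp [h5]) g]
    simp only [h2]
  · rwa [show χ = ψ from Subtype.ext (eq_of_over_of_inertia_le E θ.2 ?_ χ.2 ψ.2 h1 h4)]
    have h5 := E.range_le_inertia (irr_isClassFunction θ.2)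
    rw [E.invariant_iff_inertia, ← Subgroup.index_eq_one] at hi
    have h6 := ((Nat.dvd_prime hq).1 ((Subgroup.index_dvd_of_le h5).trans h)).resolve_left hi
    have h7 := Subgroup.relIndex_mul_index h5
    rw [← Subgroup.relIndex_eq_one, ← Nat.dvd_one, ← Nat.mul_dvd_mul_iff_right hq.pos, one_mul]
    rwa [← h6, h7, h6]

end

theorem mem_pb_of_fixed [CF.Hyp.FT] [Fintype N] {M : Ideal AlgInt} (hM : IsPModular 2 M)
    {θ : IrrCharacter N} (hθ : θ ∈ principalBlock M N)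
    (h1 : ∀ n, (θ : N → ℂ) (n ^ k) = (θ : N → ℂ) n) {G : Type u} [Group G] [Finite G]
    (E : NormalEmb N G) (hk : InvOdd k G) (ho : Odd E.index) {χ : IrrCharacter G}
    (h2 : classInner (fun n => (χ : G → ℂ) (E.ι n)) θ ≠ 0)
    (h3 : ∀ g, (χ : G → ℂ) (g ^ k) = (χ : G → ℂ) g) : χ ∈ principalBlock M G := by
  induction hn : Nat.card G using Nat.strong_induction_on generalizing G with | _ n ih
  by_cases h4 : E.index = 1
  · exact mem_pb_of_fixed_prime E hM hk Nat.prime_two (h4 ▸ one_dvd 2) ho hθ h2 h3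
  obtain ⟨K, hK, hNK, h5, h6⟩ := exists_step E ho h4
  have := Fintype.ofFinite K
  have := Fintype.ofFinite G
  have ho' := odd_index_restrict E ho K hNK
  rw [← NormalEmb.index_sub] at h5 h6
  obtain ⟨η, ⟨hη, h7, h8⟩, -⟩ := existsUnique_fixed θ.2 h1 (E.restrict K hNK) (hk.sub K) ho'
  obtain ⟨ψ, ⟨hψ, h9, h10⟩, -⟩ := existsUnique_fixed hη h8 (NormalEmb.sub K) hk h6
  obtain rfl : χ = ⟨ψ, hψ⟩ := Subtype.ext ((existsUnique_fixed θ.2 h1 E hk ho).unique ⟨χ.2, h2, h3⟩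
    ⟨hψ, inner_comp_ne_zero_of_constituent (E.restrict K hNK).ι
      (char_comp (irr_isCharacter hψ) K.subtype) hη (irr_isCharacter θ.2) h9 h7, h10⟩)
  refine mem_pb_of_fixed_prime (NormalEmb.sub K) hM hk h5 dvd_rfl h6 (θ := ⟨η, hη⟩) ?_ h9 h10
  exact ih _ (hn ▸ CF.Solv.card_lt_of_ne_top
    (by rintro rfl; simp [NormalEmb.index_sub, Nat.not_prime_one] at h5))
    (E.restrict K hNK) (hk.sub K) ho' h7 h8 rfl

end CF.BlockB
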