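import Cfsg.Agent.Block.Jord
import Cfsg.Agent.Perm.Module

/-!
# Small characters of groups with a trivial intersection Sylow subgroup
-/

namespace CF.BlockB

open Cfsg Module
open scoped Pointwise ComplexConjugate

variable {p : ℕ} {M : Ideal AlgInt}

theorem li_of_norm [Fact p.Prime] (hM : IsPModular p M) {Q : Type*} [Group Q] [Fintype Q]
    (hQ : IsPGroup p Q) {V : Type*} [AddCommGroup V] [Module ℂ V] (τ : Representation ℂ Q V)
    {J : Type*} (φ : J → V →ₗ[ℂ] ℂ) (hφ : ∀ q j, ∃ j', ∀ x, φ j (τ q x) = φ j' x) {w : V}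
    (hw : ∀ j, v M (φ j w) ≤ 1) {j₀ : J} (h : ¬ v M (φ j₀ (∑ q, τ q w)) < 1) :
    LinearIndependent ℂ fun q => τ q w := by
  classical
  have := charP_k hM
  have hw' : ∀ j q, v M (φ j (τ q w)) ≤ 1 := fun j q => by
    obtain ⟨j', e⟩ := hφ q j
    rw [e]; exact hw j'
  rw [Fintype.linearIndependent_iff]
  intro c hc
  by_contra hne
  push Not at hne
  obtain ⟨q₁, hq₁⟩ := hne
  obtain ⟨q₀, -, hq₀⟩ := Finset.exists_max_image Finset.univ (fun q => v M (c q))
    Finset.univ_nonempty
  have c0 : c q₀ ≠ 0 := fun e => by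
    have := hq₀ q₁ (Finset.mem_univ _)
    rw [e, map_zero] at this
    exact hq₁ (v_eq_zero_iff.1 (le_antisymm this zero_le))
  have d1 : ∀ q, v M (c q / c q₀) ≤ 1 := fun q => by
    rw [map_div₀, div_le_one₀ (v_pos c0)]; exact hq₀ q (Finset.mem_univ _)
  let ρ : Representation (k M) Q (Q → k M) :=
    { toFun := fun g => LinearMap.funLeft (k M) (k M) fun q => g⁻¹ * q
      map_one' := by ext; simp
      map_mul' := fun a b => by
        ext x q
        simp [LinearMap.funLeft_apply, mul_assoc] }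
  let U : Submodule (k M) (Q → k M) :=
    { carrier := {a | ∀ j, ∑ q, a q * resC M (φ j (τ q w)) = 0}
      add_mem' := fun {a b} ha hb j => by
        simp only [Pi.add_apply, add_mul, Finset.sum_add_distrib, ha j, hb j, add_zero]
      zero_mem' := fun j => by simp
      smul_mem' := fun t a ha j => by
        simp only [Pi.smul_apply, smul_eq_mul, mul_assoc, ← Finset.mul_sum, ha j, mul_zero] }
  obtain ⟨a, haU, a0, ha⟩ := CF.Perm.exists_fixed_vector hQ ρ U (fun g a ha j => by
    obtain ⟨j', e⟩ := hφ g j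
    rw [← ha j', ← Equiv.sum_comp (Equiv.mulLeft g)]
    refine Finset.sum_congr rfl fun q _ => ?_
    simp only [ρ, MonoidHom.coe_mk, OneHom.coe_mk, LinearMap.funLeft_apply, Equiv.coe_mulLeft,
      inv_mul_cancel_left, map_mul, Module.End.mul_apply, e]) (by
    rw [Submodule.ne_bot_iff]
    refine ⟨fun q => resC M (c q / c q₀), fun j => ?_, fun e => ?_⟩
    · simp only [← resC_mul (d1 _) (hw' j _)]
      rw [← resC_sum fun q _ => v_mul_le_one (d1 q) (hw' j q)]
      have := congrArg (φ j) hc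
      simp only [map_sum, map_smul, smul_eq_mul, map_zero] at this
      simp only [div_mul_eq_mul_div, ← Finset.sum_div, this, zero_div, resC_zero]
    · have := congrFun e q₀
      simp [div_self c0, resC_one] at this)
  have hc : ∀ q, a q = a 1 := fun q => by
    have := congrFun (ha q) q
    simpa [ρ, LinearMap.funLeft_apply] using this.symm
  have a1 : a 1 ≠ 0 := fun e => a0 (funext fun q => by rw [hc, e]; rfl)
  apply h
  have := haU j₀
  simp only [hc, ← Finset.mul_sum, mul_eq_zero, a1, false_or] at this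
  rw [← resC_sum fun q _ => hw' j₀ q, resC_eq_zero_iff (v_sum_le_one fun q _ => hw' j₀ q)] at this
  rwa [map_sum]

variable {G : Type*} [Group G]

theorem mem_of_ti [Finite G] [Fact p.Prime] (P : Sylow p G)
    (hTI : ∀ g : G, g ∉ Subgroup.normalizer ((P : Subgroup G) : Set G) →
      (P : Subgroup G) ⊓ (MulAut.conj g • (P : Subgroup G)) = ⊥) {H : Subgroup G}
    (hH : Subgroup.normalizer ((P : Subgroup G) : Set G) ≤ H) {u g : G} (hu : u ∈ (P : Subgroup G))
    (u1 : u ≠ 1) (h : g⁻¹ * u * g ∈ H) : g ∈ H := by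
  have hPH : (P : Subgroup G) ≤ H := Subgroup.le_normalizer.trans hH
  have hp : IsPGroup p (Subgroup.zpowers (⟨_, h⟩ : H)) := by
    obtain ⟨n, hn⟩ := P.isPGroup' ⟨u, hu⟩
    have e : (⟨_, h⟩ : H) ^ p ^ n = 1 := Subtype.ext (by
      have : u ^ p ^ n = 1 := congrArg Subtype.val hn
      simpa [this] using conj_pow (a := g⁻¹) (b := u) (i := p ^ n))
    rintro ⟨_, i, rfl⟩
    exact ⟨n, Subtype.ext (by
      simp only [SubgroupClass.coe_pow, OneMemClass.coe_one]
      rw [← zpow_natCast, ← zpow_mul, mul_comm, zpow_mul, zpow_natCast, e, one_zpow])⟩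
  obtain ⟨R, hR⟩ := hp.exists_le_sylow
  obtain ⟨t, ht⟩ := MulAction.exists_smul_eq H (P.subtype hPH) R
  have m : (⟨_, h⟩ : H) ∈ (t • P.subtype hPH : Sylow p H) := ht ▸ hR (Subgroup.mem_zpowers _)
  have m' : (t : G)⁻¹ * (g⁻¹ * u * g) * t ∈ (P : Subgroup G) := by
    have := (Subgroup.mem_pointwise_smul_iff_inv_smul_mem).1 m
    simpa [MulAut.smul_def, Subgroup.mem_subgroupOf] using this
  have : g * t ∈ H := hH (by
    by_contra hn
    have : u ∈ (P : Subgroup G) ⊓ (MulAut.conj (g * t) • (P : Subgroup G)) :=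
      ⟨hu, (Subgroup.mem_pointwise_smul_iff_inv_smul_mem).2 (by
        simpa [MulAut.smul_def, mul_assoc] using m')⟩
    rw [hTI _ hn] at this
    exact u1 this)
  simpa using H.mul_mem this (H.inv_mem t.2)

theorem exists_li_of_ti [Fintype G] [Fact p.Prime] (P : Sylow p G)
    (hTI : ∀ g : G, g ∉ Subgroup.normalizer ((P : Subgroup G) : Set G) →
      (P : Subgroup G) ⊓ (MulAut.conj g • (P : Subgroup G)) = ⊥) {H : Subgroup G}
    (hH : Subgroup.normalizer ((P : Subgroup G) : Set G) ≤ H) {n : ℕ}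
    (σ : Representation ℂ G (Fin n → ℂ)) {x : Fin n → ℂ} (x0 : x ≠ 0) (hx : ∀ h ∈ H, σ h x = x)
    (hG : ∑ g, σ g x = 0) : ∃ w, LinearIndependent ℂ fun q : P => σ q w := by
  classical
  obtain ⟨M, hM⟩ := exists_isPModular (Fact.out : p.Prime)
  let φ : G × Fin n → (Fin n → ℂ) →ₗ[ℂ] ℂ := fun j => (LinearMap.proj j.2).comp (σ j.1)
  have hφ : ∀ g j y, φ j (σ g y) = φ (j.1 * g, j.2) y := fun g j y => by simp [φ]
  obtain ⟨i, hi⟩ := Function.ne_iff.1 x0
  obtain ⟨j₀, -, hj₀⟩ := Finset.exists_max_image Finset.univ (fun j => v M (φ j x))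
    ⟨(1, i), Finset.mem_univ _⟩
  have c0 : φ j₀ x ≠ 0 := fun e => by
    have := hj₀ (1, i) (Finset.mem_univ _)
    rw [e, map_zero] at this
    exact hi (by simpa [φ] using v_eq_zero_iff.1 (le_antisymm this zero_le))
  let L : AddSubgroup (Fin n → ℂ) :=
    { carrier := {y | ∀ j, v M (φ j y) ≤ v M (φ j₀ x)}
      add_mem' := fun {a b} ha hb j => by
        rw [map_add]; exact (Valuation.map_add _ _ _).trans (max_le (ha j) (hb j))
      zero_mem' := fun j => by simp
      neg_mem' := fun {a} ha j => by rw [map_neg, Valuation.map_neg]; exact ha j }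
  have hL : ∀ g, ∀ y ∈ L, σ g y ∈ L := fun g y hy j => by rw [hφ]; exact hy _
  have xL : x ∈ L := fun j => hj₀ j (Finset.mem_univ _)
  let T : P → L →+ L := fun u =>
    ((σ u).toAddMonoidHom.comp L.subtype).codRestrict L fun y => hL _ _ y.2
  have : Fintype (G ⧸ H) := Fintype.ofFinite _
  have hF : ∀ g : G, σ (QuotientGroup.mk g : G ⧸ H).out x = σ g x := fun g => by
    obtain ⟨h, e⟩ := QuotientGroup.mk_out_eq_mul H g
    rw [e, map_mul, Module.End.mul_apply, hx _ h.2]
  have hPH : (P : Subgroup G) ≤ H := Subgroup.le_normalizer.trans hH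
  have : Fintype P := Fintype.ofFinite _
  obtain ⟨β, hβ⟩ := CF.Block.exists_sum_of_free (U := P) (X := G ⧸ H) T
    (fun q => if q = (QuotientGroup.mk 1 : G ⧸ H) then 0 else ⟨σ q.out x, hL _ _ xL⟩)
    (fun u q => by
      induction q using QuotientGroup.induction_on with | H g => ?_
      have e : (u • (QuotientGroup.mk g : G ⧸ H)) = QuotientGroup.mk ((u : G) * g) := rfl
      have e2 : (QuotientGroup.mk ((u : G) * g) : G ⧸ H) = QuotientGroup.mk 1 ↔
          (QuotientGroup.mk g : G ⧸ H) = QuotientGroup.mk 1 := by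
        simp only [QuotientGroup.eq, mul_one, inv_mem_iff]
        exact H.mul_mem_cancel_left (hPH u.2)
      rw [e]
      simp only [e2]
      split_ifs
      · simp
      · refine Subtype.ext ?_
        change σ _ x = σ u (σ _ x)
        simp [hF])
    (fun u q u1 e => by
      induction q using QuotientGroup.induction_on with | H g => ?_
      have e' : (QuotientGroup.mk ((u : G) * g) : G ⧸ H) = QuotientGroup.mk g := e
      rw [if_pos]
      rw [eq_comm, QuotientGroup.eq] at e'
      rw [QuotientGroup.eq, mul_one, inv_mem_iff]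
      exact mem_of_ti P hTI hH u.2 (fun e => u1 (Subtype.ext e)) (by simpa [mul_assoc] using e'))
  have s0 : ∑ q : G ⧸ H, σ q.out x = 0 := by
    have : Fintype H := Fintype.ofFinite _
    have e : ∑ g, σ g x = ∑ q : G ⧸ H, (Fintype.card H) • σ q.out x := by
      rw [← Finset.sum_fiberwise (s := Finset.univ) (g := fun g : G => (QuotientGroup.mk g : G ⧸ H))]
      refine Finset.sum_congr rfl fun q _ => ?_
      rw [Finset.sum_congr rfl (g := fun _ => σ q.out x) fun g hg => by
        rw [← (Finset.mem_filter.1 hg).2, hF], Finset.sum_const]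
      congr 1
      rw [← Fintype.card_subtype]
      refine Fintype.card_congr ⟨fun g => ⟨q.out⁻¹ * g, QuotientGroup.eq.1 (by simp [g.2])⟩,
        fun h => ⟨q.out * h, by simp⟩, fun g => by simp, fun h => by simp⟩
    rw [hG, ← Finset.smul_sum, eq_comm, ← Nat.cast_smul_eq_nsmul ℂ, smul_eq_zero] at e
    exact e.resolve_left (Nat.cast_ne_zero.2 Fintype.card_ne_zero)
  have s1 : ∑ u : P, σ u β = -x := by
    have := congrArg L.subtype hβ
    simp only [map_sum, AddSubgroup.subtype_apply] at this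
    rw [← (show _ = ∑ u : P, σ u β from this), eq_neg_iff_add_eq_zero, ← s0,
      ← Finset.sum_erase_add _ _ (Finset.mem_univ (QuotientGroup.mk 1 : G ⧸ H)),
      ← Finset.sum_erase_add _ (fun q : G ⧸ H => σ q.out x)
        (Finset.mem_univ (QuotientGroup.mk 1 : G ⧸ H)), if_pos rfl, hF]
    simp only [map_one, Module.End.one_apply, ZeroMemClass.coe_zero, add_zero, add_left_inj]
    exact Finset.sum_congr rfl fun q hq => by rw [if_neg (Finset.ne_of_mem_erase hq)]
  refine ⟨(φ j₀ x)⁻¹ • (β : Fin n → ℂ), li_of_norm hM P.isPGroup'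
    (σ.comp (P : Subgroup G).subtype) φ (fun q j => ⟨_, hφ q j⟩) (fun j => ?_) (j₀ := j₀) ?_⟩
  · rw [map_smul, smul_eq_mul, map_mul, map_inv₀, inv_mul_le_one₀ (v_pos c0)]
    exact β.2 j
  · have : ∑ q : P, (σ.comp (P : Subgroup G).subtype) q ((φ j₀ x)⁻¹ • (β : Fin n → ℂ)) =
        (φ j₀ x)⁻¹ • (-x) := by
      rw [← s1, Finset.smul_sum]
      exact Finset.sum_congr rfl fun q _ => map_smul _ _ _
    rw [this, map_smul, map_neg, smul_eq_mul, mul_neg, inv_mul_cancel₀ c0, Valuation.map_neg,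
      map_one]
    exact lt_irrefl _

theorem char_eq_zero_of_li {Q : Type*} [Group Q] [Fintype Q] {n : ℕ}
    (σ : Representation ℂ Q (Fin n → ℂ)) {w : Fin n → ℂ} (h : LinearIndependent ℂ fun q => σ q w)
    (hn : n ≤ Fintype.card Q) : n = Fintype.card Q ∧ ∀ y ≠ 1, σ.character y = 0 := by
  classical
  have e : Fintype.card Q = finrank ℂ (Fin n → ℂ) :=
    le_antisymm h.fintype_card_le_finrank (by simpa using hn)
  refine ⟨by simpa using e.symm, fun y y1 => ?_⟩
  let b := basisOfLinearIndependentOfCardEqFinrank h e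
  have hb : ∀ q, σ y (b q) = b (y * q) := fun q => by simp [b]
  rw [Representation.character, LinearMap.trace_eq_matrix_trace ℂ b, Matrix.trace]
  refine Finset.sum_eq_zero fun q _ => ?_
  rw [Matrix.diag_apply, LinearMap.toMatrix_apply, hb, b.repr_self, Finsupp.single_eq_of_ne]
  simpa using y1

theorem inner_self_eq_of_ti [Fintype G] [Fact p.Prime] (P : Sylow p G)
    (hTI : ∀ g : G, g ∉ Subgroup.normalizer ((P : Subgroup G) : Set G) →
      (P : Subgroup G) ⊓ (MulAut.conj g • (P : Subgroup G)) = ⊥) {χ : G → ℂ}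
    (hχ : IsCharacter G χ) (hdeg : charDegree χ ^ 2 ≤ Nat.card (P : Subgroup G)) (H : Subgroup G)
    [Fintype H] (hH : Subgroup.normalizer ((P : Subgroup G) : Set G) ≤ H) :
    classInner χ χ = classInner (fun h : H => χ h) (fun h : H => χ h) := by
  classical
  obtain ⟨n, σ, hσ⟩ := CF.Char.char_mul hχ (CF.Char.char_conj hχ)
  have hσ' : ∀ g, σ.character g = χ g * conj (χ g) := fun g => by rw [hσ]; rfl
  obtain ⟨d, hd⟩ := CF.Char.char_one_eq_nat hχ
  have hn : n = d ^ 2 := by
    have := hσ' 1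
    simp only [Representation.char_one, hd, finrank_fin_fun, Complex.conj_natCast] at this
    exact_mod_cast this.trans (sq _).symm
  have hd' : charDegree χ = d := by simp [charDegree, hd]
  let eG : Module.End ℂ (Fin n → ℂ) := (Nat.card G : ℂ)⁻¹ • ∑ g, σ g
  let eH : Module.End ℂ (Fin n → ℂ) := (Nat.card H : ℂ)⁻¹ • ∑ h : H, σ h
  by_cases e : eH = eG
  · have := congrArg (LinearMap.trace ℂ _) e
    simp only [eH, eG, map_smul, map_sum, smul_eq_mul] at this
    simp only [classInner, ← hσ']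
    exact this.symm
  exfalso
  obtain ⟨u, hu⟩ := DFunLike.ne_iff.1 e
  have a1 : ∀ g, σ g * eG = eG := fun g => by
    simp only [eG, mul_smul_comm, Finset.mul_sum, ← map_mul]
    rw [← Equiv.sum_comp (Equiv.mulLeft g) (fun g => σ g)]; rfl
  have a2 : ∀ g : H, σ g * eH = eH := fun g => by
    simp only [eH, mul_smul_comm, Finset.mul_sum, ← map_mul]
    rw [← Equiv.sum_comp (Equiv.mulLeft g) (fun g : H => σ g)]; rfl
  have a3 : ∀ g, (∑ x, σ x) * σ g = ∑ x, σ x := fun g => by
    simp only [Finset.sum_mul, ← map_mul]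
    rw [← Equiv.sum_comp (Equiv.mulRight g) (fun g => σ g)]; rfl
  have : Fintype P := Fintype.ofFinite _
  obtain ⟨w, hw⟩ := exists_li_of_ti P hTI hH σ (sub_ne_zero.2 hu) (fun h hh => by
    rw [map_sub, ← Module.End.mul_apply, ← Module.End.mul_apply, a1, a2 ⟨h, hh⟩]) (by
    rw [← LinearMap.sum_apply, map_sub, ← Module.End.mul_apply, ← Module.End.mul_apply]
    simp only [eH, eG, mul_smul_comm, Finset.mul_sum, a3, Finset.sum_const, Finset.card_univ,
      ← Nat.card_eq_fintype_card, ← Nat.cast_smul_eq_nsmul ℂ, smul_smul,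
      inv_mul_cancel₀ (CF.Char.card_ne_zero_complex (G := G)),
      inv_mul_cancel₀ (CF.Char.card_ne_zero_complex (G := H)), sub_self])
  obtain ⟨b1, b2⟩ := char_eq_zero_of_li (σ.comp (P : Subgroup G).subtype) hw
    (by rwa [hn, ← hd', ← Nat.card_eq_fintype_card])
  obtain ⟨m, hm⟩ := CF.Char.inner_char_eq_nat (CF.Char.char_restrict hχ P)
    (CF.Char.char_const_one (G := P))
  rw [CF.Char.inner_one_right, Finset.sum_eq_single 1 (fun y _ y1 => by
    have := (hσ' y).symm.trans (b2 y y1)
    simpa using this) (by simp), inv_mul_eq_iff_eq_mul₀ CF.Char.card_ne_zero_complex] at hm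
  rw [← Nat.card_eq_fintype_card, hn] at b1
  have b3 : d = Nat.card P * m := by
    have : (d : ℂ) = Nat.card P * m := hd.symm.trans hm
    exact_mod_cast this
  have b4 : Nat.card P = 1 := by
    have : 0 < Nat.card P := Nat.card_pos
    have b1' : (Nat.card P * m) ^ 2 = Nat.card P := b3 ▸ b1
    have : Nat.card P * (Nat.card P * m ^ 2) = Nat.card P * 1 := by rw [mul_one]; nlinarith
    exact Nat.eq_one_of_mul_eq_one_right (Nat.eq_of_mul_eq_mul_left ‹_› this)
  have b5 : H = ⊤ := by
    rw [eq_top_iff]; refine le_trans ?_ hH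
    rw [Subgroup.card_eq_one.1 b4]
    exact Subgroup.normalizer_eq_top_iff.2 inferInstance |>.ge
  subst b5
  apply e
  simp only [eH, eG, Subgroup.card_top]
  rw [← Equiv.sum_comp Subgroup.topEquiv.toEquiv (fun g => σ g)]; rfl

end CF.BlockB
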