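import Cfsg.Agent.BlockB.Tame10
import Cfsg.Agent.BlockB.Tilde
import Cfsg.Agent.Block.Deg

/-!
# Dihedral or semidihedral defect with three simple modules
-/

namespace CF.BlockB

open Cfsg MonoidAlgebra Subgroup CF.Block CF.Invol

universe u

variable {p : ℕ} {M : Ideal AlgInt} {G : Type*} [Group G] {B : Set (IrrCharacter G)}
  {P : Subgroup G} {e : (k M)[G]}

theorem reg_indFun [Fintype G] (T : Subgroup G) (ψ : T → ℂ) :
    pRegularPart p (indFun T ψ) = indFun T (pRegularPart p ψ) := by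
  ext g
  have h : ∀ x : G, extendByZero T (pRegularPart p ψ) (x⁻¹ * g * x) =
      if p ∣ orderOf g then 0 else extendByZero T ψ (x⁻¹ * g * x) := fun x => by
    by_cases h1 : x⁻¹ * g * x ∈ T
    · rw [Char.extendByZero_of_mem _ _ h1, Char.extendByZero_of_mem _ _ h1, reg_apply,
        ← Subgroup.orderOf_coe, ← orderOf_conj' g x⁻¹, inv_inv]
    · simp [Char.extendByZero_of_not_mem _ _ h1]
  rw [reg_apply, indFun, indFun]
  simp only [h]
  split_ifs <;> simp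

theorem blockRank_le_of_ind [Fintype G] {T : Subgroup G} {B' : Set (IrrCharacter T)}
    (h : ∀ χ ∈ B, ∃ ψ ∈ B', (χ : G → ℂ) = indFun T (ψ : T → ℂ)) :
    blockRank p B ≤ blockRank p B' := by
  refine le_trans (Submodule.finrank_mono ?_) (Submodule.finrank_map_le (lift T 1) _)
  rw [Submodule.map_span]
  refine Submodule.span_mono ?_
  rintro _ ⟨χ, hχ, rfl⟩
  obtain ⟨ψ, hψ, h1⟩ := h χ hχ
  exact ⟨_, ⟨ψ, hψ, rfl⟩, by simp [lift_def, h1, reg_indFun]⟩

/-- Dihedral of order at least eight, or semidihedral. -/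
def DQ (P : Subgroup G) : Prop :=
  ∃ (m : ℕ) (a b : ZMod (2 ^ m) → G), (2 ≤ m ∧ DH P m a b) ∨ QD P m a b

theorem DQ.map (h : DQ P) {G' : Type*} [Group G'] {f : G →* G'} (hf : Function.Injective f) :
    DQ (P.map f) :=
  let ⟨m, _, _, h⟩ := h
  ⟨m, _, _, h.imp (fun h => ⟨h.1, h.2.map hf⟩) fun h => h.map hf⟩

theorem DQ.subgroupOf (h : DQ P) {T : Subgroup G} (hT : P ≤ T) : DQ (P.subgroupOf T) := by
  obtain ⟨m, a, b, h | h⟩ := h
  · exact ⟨m, _, _, Or.inl ⟨h.1, mx_subgroupOf h.2 hT⟩⟩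
  · exact ⟨m, _, _, Or.inr ⟨mx_subgroupOf h.toMX hT, h.three_le⟩⟩

theorem DQ.ne_bot (h : DQ P) : P ≠ ⊥ := by
  obtain ⟨m, a, b, h | h⟩ := h
  · exact fun h1 => h.2.a_ne_b 0 0 (h.2.a_zero.trans (mem_bot.1 (h1 ▸ h.2.b_mem 0)).symm)
  · exact fun h1 => h.a_ne_b 0 0 (h.a_zero.trans (mem_bot.1 (h1 ▸ h.b_mem 0)).symm)

variable [Finite G]

theorem DQ.not_comm (h : DQ P) (hM : IsPModular 2 M) (hB : IsPBlock M B)
    (hP : IsDefGrp 2 ⊤ (eb M B) P) (hl : 3 ≤ blockRank 2 B) (A : Subgroup G) [A.Normal]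
    (hA : P ⊓ A ≠ ⊥) : ∃ s ∈ P ⊓ A, ∃ t ∈ P ⊓ A, ¬ Commute s t := by
  have := charP_k hM
  have := Fintype.ofFinite P
  obtain ⟨e, he⟩ := hP.exists_maxPair (isBlk_eb hM hB)
  obtain ⟨m, κ, a, b, h, hm, h0, h1, h2⟩ : ∃ m κ a b, MX P m κ 0 a b ∧ 2 ≤ m ∧
      orderOf (b 0) = 2 ∧ orderOf (b (zq m)) = 2 ∧ outs P e a = ∅ := by
    obtain ⟨m, a, b, ⟨hm, h⟩ | h⟩ := h
    · refine ⟨m, _, a, b, h, hm, h.orderOf_b _, h.orderOf_b _, outs_eq_empty hM he.bpair.pair ?_⟩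
      have h1 := (dihedral_main hM hB he h hm).2.1
      have h2 : (3 : ℝ) ≤ blockRank 2 B := by exact_mod_cast hl
      linarith
    · obtain ⟨-, -, -, r, h1, -, h2, -, h3⟩ := qd_main hM hB he h
      exact ⟨m, _, a, b, h.toMX, h.two_le, h.orderOf_b_zero,
        two_mul_ze h.three_le ▸ h.orderOf_b_even _, h3 (by omega)⟩
  have hz : a (zh m) ∈ A := by
    obtain ⟨⟨x, hx, hxA⟩, hx1⟩ := ne_bot_iff_exists_ne_one.1 hA
    rcases (h.mem x).1 hx with ⟨i, rfl⟩ | ⟨i, rfl⟩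
    · exact zpowers_le_of_mem hxA (zh_mem h fun h3 => hx1 (Subtype.ext (by simp [h3, h.a_zero])))
    · exact zpowers_le_of_mem (h.a_two_mem (le_normalizer_of_normal' P A) hxA)
        (zh_mem h (h.two_ne_zero' hm))
  have h3 : ∀ l, orderOf (b l) = 2 → b l ∈ P ⊓ A := fun l hl => by
    obtain ⟨j, hj⟩ : ∃ j, FConj 2 P e (a j) (b l) := by
      by_contra h3
      simpa [h2] using (mem_outs (e := e) (u := ⟨_, h.b_mem l⟩)).2 (not_exists.1 h3)
    rw [(h.orderOf_a_eq_two h.one_le).1 ((FConj.orderOf_eq' hj).trans hl)] at hj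
    obtain ⟨g, -, h4, -⟩ := hj
    exact ⟨h.b_mem l, h4 ▸ Normal.conj_mem inferInstance _ hz g⟩
  refine ⟨_, h3 _ h0, _, h3 _ h1, fun h4 => (h.commute_bb'.1 h4).elim (zq_ne_zero hm).symm
    fun h5 => zh_ne_zero h.one_le ?_⟩
  linear_combination -2 * h5 - two_mul_zq hm - two_mul_zh h.one_le

theorem DQ.odd_center (h : DQ P) (hM : IsPModular 2 M) (hB : IsPBlock M B)
    (hP : IsDefGrp 2 ⊤ (eb M B) P) (hl : 3 ≤ blockRank 2 B) : Odd (Nat.card (center G)) := by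
  have := charP_k hM
  by_contra h1
  obtain ⟨t, ht⟩ := exists_prime_orderOf_dvd_card' 2 (even_iff_two_dvd.1 (Nat.not_odd_iff_even.1 h1))
  have h2 : (t : G) ∈ P := hP.normal_le (isBlk_eb hM hB) (P := zpowers (t : G))
    (IsPGroup.of_card (n := 1) (by rw [Nat.card_zpowers, Subgroup.orderOf_coe, ht, pow_one])) le_top
    (fun g _ => by
      have := Clifford.normal_of_le_center (zpowers_le_of_mem t.2)
      exact le_normalizer_of_normal' ⊤ _ (mem_top g)) (mem_zpowers _)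
  obtain ⟨s, -, w, hw, h3⟩ := h.not_comm hM hB hP hl (center G)
    (ne_bot_iff_exists_ne_one.2 ⟨⟨t, h2, t.2⟩, fun h3 => by
      rw [show t = 1 from Subtype.ext (congrArg Subtype.val h3 :), orderOf_one] at ht
      omega⟩)
  exact h3 (mem_center_iff.1 hw.2 s)

theorem DQ.not_isPSolvable (hM : IsPModular 2 M) {G : Type u} [Group G] [Finite G]
    {B : Set (IrrCharacter G)} {P : Subgroup G} (h : DQ P) (hB : IsPBlock M B)
    (hP : IsDefGrp 2 ⊤ (eb M B) P) (hl : 3 ≤ blockRank 2 B) : ¬ IsPSolvable 2 G := by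
  intro hs
  induction hn : Nat.card G using Nat.strong_induction_on generalizing G with
  | _ n ih =>
  have := charP_k hM
  have := Fintype.ofFinite G
  set N := pPrimeCore 2 G with hN
  have := Fintype.ofFinite N
  have hp : ¬ 2 ∣ Nat.card N := Solv.not_dvd_card_pPrimeCore
  obtain ⟨χ, hχ⟩ := block_nonempty hM hB
  obtain ⟨θ, hθ, h0⟩ := Clifford.exists_irr_constituent_comp N.subtype χ.2
  have hb := isPBlock_singleton_of_not_dvd hM hp ⟨θ, hθ⟩
  have hcov : eb M B * ebs M N {⟨θ, hθ⟩} ≠ 0 := (covers_iff hM hB hb).1 ⟨χ, hχ, _, rfl, h0⟩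
  set T := stab ⊤ (ebs M N {⟨θ, hθ⟩}) with hT
  by_cases hTt : T = ⊤
  · have hst : ebs M N {⟨θ, hθ⟩} ∈ fix (k M) ⊤ := (le_stab_iff.1 hTt.ge).2
    have hc := isCharP_quot_of_isPSolvable hs
    obtain ⟨h1, h2, -⟩ := fong_isBlk hM hp hc (isBlk_ebs hM hb) hst
    have h3 : eb M B = ebs M N {⟨θ, hθ⟩} := (isBlk_eb hM hB).eq_of_mul_ne_zero h1 hcov
    obtain ⟨S, hS⟩ := exists_isSyl (p := 2) (⊤ : Subgroup G)
    have hPS : IsSyl 2 P ⊤ :=
      isSyl_of_card_ge hS hP.isP le_top (((h3 ▸ h2 S hS).card_eq hP (isBlk_eb hM hB)).le)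
    have hinj : ∀ x ∈ P, QuotientGroup.mk' N x = 1 → x = 1 := fun x hx h4 => by
      have h5 : x ∈ P ⊓ N := ⟨hx, (QuotientGroup.eq_one_iff x).1 h4⟩
      rwa [Loc.inf_eq_bot_of_coprime_card hP.isP
        ((Nat.Prime.coprime_iff_not_dvd Nat.prime_two).2 hp).symm, mem_bot] at h5
    set O' := pCore 2 (G ⧸ N)
    have hO : O' ≤ P.map (QuotientGroup.mk' N) := by
      obtain ⟨S, rfl⟩ := isSyl_top_iff.1 hPS
      exact Solv.pCore_le_sylow (S.mapSurjective (QuotientGroup.mk'_surjective N))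
    obtain ⟨s, hs, t, ht, h4⟩ := h.not_comm hM hB hP hl
      ((O' ⊓ centralizer (O' : Set (G ⧸ N))).comap (QuotientGroup.mk' N)) (by
        have : Nontrivial P := (nontrivial_iff_ne_bot P).2 h.ne_bot
        have := hP.isP.center_nontrivial
        obtain ⟨z, hz⟩ := exists_ne (1 : center P)
        have hc' : QuotientGroup.mk' N z.1 ∈ centralizer (O' : Set (G ⧸ N)) := by
          intro y hy
          obtain ⟨a, ha, rfl⟩ := hO hy
          rw [← map_mul, ← map_mul]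
          exact congrArg _ (congrArg Subtype.val (mem_center_iff.1 z.2 ⟨a, ha⟩))
        exact ne_bot_iff_exists_ne_one.2 ⟨⟨z.1, z.1.2, Loc.isCharP_top_iff.1 hc hc', hc'⟩,
          fun h5 => hz (Subtype.ext (Subtype.ext (congrArg Subtype.val h5 :)))⟩)
    refine h4 (commutatorElement_eq_one_iff_commute.1 (hinj _
      (mul_mem (mul_mem (mul_mem hs.1 ht.1) (inv_mem hs.1)) (inv_mem ht.1)) ?_))
    rw [map_commutatorElement, commutatorElement_eq_one_iff_mul_comm]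
    exact ht.2.2 _ hs.2.1
  · have := Fintype.ofFinite T
    obtain ⟨B', hind, -, h1, h2, -⟩ := fr_reduce hM hb hT hB hcov
    obtain ⟨D, hD⟩ := exists_defectGroup hM hind.1
    have h4 := h1 _ ((isDefectGroup_iff_sub hM hind.1 D).1 hD)
    obtain ⟨g, -, h5⟩ := hP.conj h4 (isBlk_eb hM hB)
    have h6 : DQ (D.map T.subtype) := h5 ▸ h.map (MulAut.conj g).injective
    refine ih _ ?_ (comap_map_eq_self_of_injective T.subtype_injective D ▸
      h6.subgroupOf (map_subtype_le D))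
      hind.1 ((isDefectGroup_iff hM hind.1 D).1 hD) (hl.trans (blockRank_le_of_ind h2))
      (Solv.isPSolvable_subgroup hs T) rfl
    rw [← hn, ← T.card_mul_index]
    exact lt_mul_of_one_lt_right Nat.card_pos (one_lt_index_of_ne_top hTt)

end CF.BlockB
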