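import Mathlib

/-!
# A descending chain condition for distributions on integral points
-/

namespace CF.BlockB.Vor

open Finset Polynomial

/-- Vectors whose coordinates are the roots of a monic integral polynomial. -/
def Pt (k : ℕ) : Set (EuclideanSpace ℂ (Fin k)) :=
  {u | ∃ P : ℤ[X], P.map (Int.castRingHom ℂ) = ∏ i, (X - C (u i))}

theorem finite_pt (k : ℕ) (r : ℝ) : {u ∈ Pt k | ‖u‖ ≤ r}.Finite := by
  classical
  obtain ⟨B, hB⟩ : ∃ B : ℕ, B = Nat.ceil (max r 1 ^ k * k.choose (k / 2)) := ⟨_, rfl⟩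
  have h := bUnion_roots_finite (Int.castRingHom ℂ) k (Set.finite_Icc (-B : ℤ) B)
  refine Set.Finite.of_finite_image (f := fun u => u.ofLp)
    ((Set.Finite.pi' fun _ : Fin k => h).subset ?_) (WithLp.ofLp_injective 2).injOn
  rintro _ ⟨u, ⟨⟨P, hP⟩, hu⟩, rfl⟩ i
  have hm : (∏ i, (X - C (u i))).Monic := monic_prod_of_monic _ _ fun i _ => monic_X_sub_C _
  have hd : (∏ i, (X - C (u i))).natDegree = k := by
    rw [natDegree_prod_of_monic _ _ fun i _ => monic_X_sub_C _]; simp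
  have hr : ∀ z, z ∈ (∏ i, (X - C (u i))).roots ↔ ∃ i, u i = z := fun z => by
    rw [mem_roots hm.ne_zero, IsRoot, eval_prod, prod_eq_zero_iff]
    simp only [mem_univ, eval_sub, eval_X, eval_C, sub_eq_zero, true_and, eq_comm (a := z)]
  simp only [Set.mem_iUnion]
  refine ⟨P, ⟨?_, fun j => ?_⟩, ?_⟩
  · rw [← natDegree_map_eq_of_injective (Int.castRingHom ℂ).injective_int, hP, hd]
  · have h1 := coeff_bdd_of_roots_le (B := r) (RingHom.id ℂ) hm (IsAlgClosed.splits _) hd.le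
      (fun z hz => by
        rw [map_id, hr] at hz
        obtain ⟨i, rfl⟩ := hz
        exact (PiLp.norm_apply_le u i).trans hu) j
    rw [map_id, ← hP, coeff_map, eq_intCast, Complex.norm_intCast] at h1
    rw [Set.mem_Icc, ← abs_le, ← @Int.cast_le ℝ]
    push_cast
    exact h1.trans (hB ▸ Nat.le_ceil _)
  · rw [hP, mem_coe, Multiset.mem_toFinset, hr]
    exact ⟨i, rfl⟩

/-- A finite family of integral points with first coordinate one whose mean is the point of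
their affine span closest to the origin. -/
structure Cfg (k : ℕ) where
  n : ℕ
  u : Fin n → EuclideanSpace ℂ (Fin (k + 1))
  c : EuclideanSpace ℂ (Fin (k + 1))
  npos : 0 < n
  pt : ∀ j, u j ∈ Pt (k + 1)
  one : ∀ j, u j 0 = 1
  mean : ∑ j, u j = (n : ℂ) • c
  orth : ∀ j, inner ℂ c (u j) = ((‖c‖ ^ 2 : ℝ) : ℂ)
  bd : ∑ j, ‖u j‖ ^ 2 ≤ n * ((k + 1) * ‖c‖ ^ 2)

variable {k : ℕ}

theorem Cfg.step (a b : Cfg k) {r T : ℝ} (hr : 1 ≤ r) (ha : ‖a.c‖ ≤ T) (hb : ‖b.c‖ ≤ T)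
    (h : ∀ j, ‖b.u j‖ ≤ r → inner ℂ a.c (b.u j) = ((‖a.c‖ ^ 2 : ℝ) : ℂ)) :
    ‖a.c‖ ≤ ‖b.c‖ + (k + 1) * T ^ 2 * (1 + T) / r := by
  classical
  obtain ⟨S, hS⟩ : ∃ S, S = univ.filter fun j => ‖b.u j‖ ≤ r := ⟨_, rfl⟩
  have hS' : ∀ j ∈ Sᶜ, r < ‖b.u j‖ := fun j hj => by simpa [hS] using hj
  have hn : (0 : ℝ) < b.n := by exact_mod_cast b.npos
  have hT : 0 ≤ T := (norm_nonneg _).trans ha
  obtain ⟨K, hK⟩ : ∃ K : ℝ, K = (k + 1) * T ^ 2 := ⟨_, rfl⟩
  have hK0 : 0 ≤ K := by rw [hK]; positivity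
  have h1 : ∑ j ∈ Sᶜ, ‖b.u j‖ ^ 2 ≤ b.n * K := by
    refine (sum_le_sum_of_subset_of_nonneg (subset_univ _) fun _ _ _ => by positivity).trans
      (b.bd.trans ?_)
    rw [hK]
    gcongr
  have h2 : r * ‖∑ j ∈ Sᶜ, b.u j‖ ≤ b.n * K := by
    refine le_trans ?_ h1
    refine (mul_le_mul_of_nonneg_left (norm_sum_le _ _) (by linarith)).trans ?_
    rw [mul_sum]
    exact sum_le_sum fun j hj => by nlinarith [hS' j hj]
  have h3 : r * (Sᶜ.card : ℝ) ≤ b.n * K := by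
    refine le_trans ?_ h1
    rw [card_eq_sum_ones]
    push_cast
    rw [mul_sum]
    exact sum_le_sum fun j hj => by nlinarith [hS' j hj]
  have h4 : (S.card : ℝ) + Sᶜ.card = b.n := by
    norm_cast; rw [card_add_card_compl, Fintype.card_fin]
  have h5 : inner ℂ a.c (∑ j ∈ S, b.u j) = ((S.card * ‖a.c‖ ^ 2 : ℝ) : ℂ) := by
    rw [inner_sum, sum_congr rfl fun j hj => h j (by simpa [hS] using hj)]
    simp
  have h6 : ∑ j ∈ S, b.u j = (b.n : ℂ) • b.c - ∑ j ∈ Sᶜ, b.u j := by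
    rw [← b.mean, ← sum_add_sum_compl S]; simp
  have h7 : S.card * ‖a.c‖ ^ 2 ≤ ‖a.c‖ * (b.n * ‖b.c‖ + ‖∑ j ∈ Sᶜ, b.u j‖) := by
    have e := norm_inner_le_norm (𝕜 := ℂ) a.c (∑ j ∈ S, b.u j)
    rw [h5, Complex.norm_real, Real.norm_of_nonneg (by positivity), h6] at e
    refine e.trans (mul_le_mul_of_nonneg_left ((norm_sub_le _ _).trans ?_) (norm_nonneg _))
    rw [norm_smul, Complex.norm_natCast]
  rw [← hK]
  rcases (norm_nonneg a.c).eq_or_lt with h0 | h0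
  · rw [← h0]; positivity
  have h8 : S.card * ‖a.c‖ ≤ b.n * ‖b.c‖ + ‖∑ j ∈ Sᶜ, b.u j‖ := by
    apply le_of_mul_le_mul_left _ h0
    linarith
  have h9 : r * (Sᶜ.card * ‖a.c‖) ≤ b.n * K * T := by
    rw [← mul_assoc]
    exact mul_le_mul h3 ha h0.le (by positivity)
  rw [← sub_le_iff_le_add', le_div_iff₀ (by linarith)]
  apply le_of_mul_le_mul_left _ hn
  have h10 := mul_le_mul_of_nonneg_left h8 (by linarith : 0 ≤ r)
  have h11 : b.n * ‖a.c‖ = S.card * ‖a.c‖ + Sᶜ.card * ‖a.c‖ := by rw [← h4]; ring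
  nlinarith

/-- The linear form cutting out the hyperplane of a configuration. -/
noncomputable def Cfg.form (a : Cfg k) : EuclideanSpace ℂ (Fin (k + 1)) →ₗ[ℂ] ℂ :=
  innerₛₗ ℂ a.c - ((‖a.c‖ ^ 2 : ℝ) : ℂ) • (EuclideanSpace.proj (0 : Fin (k + 1))).toLinearMap

theorem Cfg.form_apply (a : Cfg k) (y : EuclideanSpace ℂ (Fin (k + 1))) :
    a.form y = inner ℂ a.c y - ((‖a.c‖ ^ 2 : ℝ) : ℂ) * y 0 := rfl

theorem no_desc_aux (U : Submodule ℂ (EuclideanSpace ℂ (Fin (k + 1)))) (f : ℕ → Cfg k)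
    (hf : StrictAnti fun n => ‖(f n).c‖) (hU : ∀ n, U ≤ LinearMap.ker (f n).form) : False := by
  induction U using WellFoundedGT.induction generalizing f with
  | ind U ih =>
  obtain ⟨T, hT⟩ : ∃ T, T = ‖(f 0).c‖ := ⟨_, rfl⟩
  have hε : 0 < T - ‖(f 1).c‖ := sub_pos.2 (hT ▸ hf zero_lt_one)
  obtain ⟨r, hr⟩ := exists_gt (max 1 ((k + 1) * T ^ 2 * (1 + T) / (T - ‖(f 1).c‖)))
  have hr1 : 1 < r := (le_max_left _ _).trans_lt hr
  have hr2 : (k + 1) * T ^ 2 * (1 + T) / r < T - ‖(f 1).c‖ := by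
    have := (le_max_right _ _).trans_lt hr
    rw [div_lt_iff₀ hε] at this
    rw [div_lt_iff₀ (by linarith)]
    linarith
  have h1 : ∀ n, ∃ j, ‖(f (n + 1)).u j‖ ≤ r ∧ (f (n + 1)).u j ∉ U := fun n => by
    by_contra h
    push Not at h
    have := (f 0).step (f (n + 1)) hr1.le hT.ge (hT ▸ hf.antitone (Nat.zero_le _)) fun j hj => by
      have := hU 0 (h j hj)
      rwa [LinearMap.mem_ker, Cfg.form_apply, (f (n + 1)).one, mul_one, sub_eq_zero] at this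
    have h2 : ‖(f (n + 1)).c‖ ≤ ‖(f 1).c‖ := hf.antitone (by omega)
    linarith
  choose j hj using h1
  have := (finite_pt (k + 1) r).to_subtype
  obtain ⟨x, hx⟩ := Finite.exists_infinite_fiber fun n : ℕ =>
    (⟨(f (n + 1)).u (j n), (f (n + 1)).pt _, (hj n).1⟩ : {u ∈ Pt (k + 1) | ‖u‖ ≤ r})
  have hx' := Set.infinite_coe_iff.1 hx
  obtain ⟨g, hg, hg'⟩ : ∃ g : ℕ → ℕ, StrictMono g ∧ ∀ n, (f (g n + 1)).u (j (g n)) = x :=
    ⟨_, Nat.nth_strictMono hx', fun n =>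
      congrArg Subtype.val (Nat.nth_mem_of_infinite hx' n)⟩
  refine ih (U ⊔ Submodule.span ℂ {x.1}) ?_ (fun n => f (g n + 1))
    (fun m n h => hf (Nat.succ_lt_succ (hg h))) fun n => sup_le (hU _) ?_
  · refine lt_of_le_of_ne le_sup_left fun h => (hj (g 0)).2 ?_
    rw [hg' 0, h]
    exact Submodule.mem_sup_right (Submodule.mem_span_singleton_self _)
  · rw [Submodule.span_singleton_le_iff_mem, ← hg' n, LinearMap.mem_ker, Cfg.form_apply,
      Cfg.one, Cfg.orth, mul_one, sub_self]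

theorem no_desc (f : ℕ → Cfg k) : ¬ StrictAnti fun n => ‖(f n).c‖ :=
  fun hf => no_desc_aux ⊥ f hf fun _ => bot_le

theorem exists_bound (k : ℕ) : ∃ N : ℕ, ∀ (a b : Cfg k) (m c d : ℕ), m.Coprime c → 0 < c → 0 < d →
    c + d = m → ‖a.c‖ ^ 2 * c = m → ‖b.c‖ ^ 2 * d = m → m ≤ N := by
  by_contra h
  push Not at h
  choose a b m c d hm hc hd hcd ha hb hN using h
  have hc' : ∀ n, (0 : ℝ) < c n := fun n => by exact_mod_cast hc n
  have hd' : ∀ n, (0 : ℝ) < d n := fun n => by exact_mod_cast hd n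
  have hcd' : ∀ n, (c n : ℝ) + d n = m n := fun n => by exact_mod_cast hcd n
  have key : ∀ i j, ‖(a i).c‖ < ‖(a j).c‖ → ‖(b j).c‖ < ‖(b i).c‖ := fun i j h => by
    have h1 : ‖(a i).c‖ ^ 2 < ‖(a j).c‖ ^ 2 := by gcongr
    refine lt_of_pow_lt_pow_left₀ 2 (norm_nonneg _) ?_
    rw [eq_div_of_mul_eq (hc' _).ne' (ha i), eq_div_of_mul_eq (hc' _).ne' (ha j),
      div_lt_div_iff₀ (hc' _) (hc' _)] at h1
    rw [eq_div_of_mul_eq (hd' _).ne' (hb i), eq_div_of_mul_eq (hd' _).ne' (hb j),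
      div_lt_div_iff₀ (hd' _) (hd' _)]
    rw [← hcd'] at h1 ⊢
    rw [← hcd'] at h1 ⊢
    nlinarith
  obtain ⟨g, hg | hg⟩ := exists_increasing_or_nonincreasing_subseq (· < ·) fun n => ‖(a n).c‖
  · exact no_desc (fun n => b (g n)) fun i j h => key _ _ (hg i j h)
  obtain ⟨g', hg' | hg'⟩ := exists_increasing_or_nonincreasing_subseq (· > ·)
    fun n => ‖(a (g n)).c‖
  · exact no_desc (fun n => a (g (g' n))) fun i j h => hg' i j h
  obtain ⟨i, hi⟩ : ∃ i, i = g (g' 0) := ⟨_, rfl⟩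
  obtain ⟨j, hj⟩ : ∃ j, j = g (g' (m i + 1)) := ⟨_, rfl⟩
  have e : ‖(a i).c‖ = ‖(a j).c‖ := by
    rw [hi, hj]
    exact le_antisymm (not_lt.1 (hg' _ _ (Nat.succ_pos _)))
      (not_lt.1 (hg _ _ (g'.strictMono (Nat.succ_pos _))))
  have e2 : m j * c i = m i * c j := by
    have : (m j : ℝ) * c i = m i * c j := by rw [← ha, ← ha, e]; ring
    exact_mod_cast this
  have e3 : m j ≤ m i := Nat.le_of_dvd (by have := hN i; omega)
    ((hm j).dvd_of_dvd_mul_right ⟨_, e2.symm⟩)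
  have e4 : m i + 1 ≤ j := hj ▸ (g'.strictMono.le_apply).trans g.strictMono.le_apply
  have := hN j
  omega

end CF.BlockB.Vor
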