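import Cfsg.Agent.BlockB.Vor4
import Cfsg.Agent.BlockB.Vor5
import Cfsg.Agent.BlockB.Gal

/-!
# The order of a Sylow subgroup is bounded in terms of the size of the principal block
-/

namespace CF.BlockB.Vor

open Cfsg Finset CF.Char Polynomial
open scoped ComplexConjugate

variable {p : ℕ} {M : Ideal AlgInt} {G : Type*} [Group G] [Finite G]

theorem exists_int_poly {n : ℕ} {χ : Fin n → IrrCharacter G} (hχ : Function.Injective χ)
    (hg : ∀ (m : ℕ) (hm : m.Coprime (Nat.card G)) i, gal hm (χ i) ∈ Set.range χ) (g : G) :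
    ∃ P : ℤ[X], P.map (Int.castRingHom ℂ) = ∏ i, (X - C ((χ i : G → ℂ) g)) := by
  rw [← mem_lifts, lifts_iff_coeff_lifts]
  intro j
  suffices ∃ a : ℤ, (∏ i, (X - C ((χ i : G → ℂ) g)) : ℂ[X]).coeff j = (a : ℂ) from
    this.imp fun a ha => ha.symm
  refine int_of_fixed ?_ fun σ => ?_
  · have : (∏ i, (X - C ((χ i : G → ℂ) g))) = (∏ i, (X - C (⟨(χ i : G → ℂ) g,
        gen_isIntegral (gen_of_irr (χ i).2) g⟩ : integralClosure ℤ ℂ))).map (algebraMap _ ℂ) := by
      simp [Polynomial.map_prod]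
    rw [this, coeff_map]
    exact Subtype.property _
  · obtain ⟨m, hm, hσ⟩ := aut_exists_gen_pow (G := G) σ.toRingHom
    choose τ hτ using hg m hm
    have hinj : Function.Injective τ := fun i j h => hχ (by
      have e : gal hm (χ i) = gal hm (χ j) := by rw [← hτ, ← hτ, h]
      refine Subtype.ext (funext fun x => ?_)
      obtain ⟨y, rfl⟩ := (powCoprime hm.symm).surjective x
      exact congrFun (congrArg Subtype.val e) y)
    change σ.toRingHom _ = _
    rw [← coeff_map, Polynomial.map_prod]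
    congr 1
    refine Eq.trans (prod_congr rfl fun i _ => ?_)
      (Equiv.prod_comp (Equiv.ofBijective τ (Finite.injective_iff_bijective.1 hinj)) _)
    rw [Polynomial.map_sub, map_X, map_C, hσ _ (gen_of_irr (χ i).2), Equiv.ofBijective_apply, hτ,
      gal_apply]

theorem exists_cfg {n : ℕ} {χ : Fin (n + 1) → IrrCharacter G}
    (hχ : Function.Injective χ) (h0 : χ 0 = oneIrr G)
    (hg : ∀ (m : ℕ) (hm : m.Coprime (Nat.card G)) i, gal hm (χ i) ∈ Set.range χ)
    (S : Finset G) (hne : S.Nonempty)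
    (ho : ∀ g ∈ S, ∀ h ∉ S, ∑ i, (χ i : G → ℂ) g * conj ((χ i : G → ℂ) h) = 0) :
    ∃ a : Cfg n, ‖a.c‖ ^ 2 * S.card = Nat.card G := by
  classical
  have := Fintype.ofFinite G
  have hG : (Nat.card G : ℂ) ≠ 0 := card_ne_zero_complex
  have hS : (S.card : ℂ) ≠ 0 := by exact_mod_cast hne.card_pos.ne'
  have e1 : ∀ i j, ∑ h, (χ i : G → ℂ) h * conj ((χ j : G → ℂ) h) =
      if i = j then (Nat.card G : ℂ) else 0 := fun i j => by
    have := inner_irr' (χ i) (χ j)
    rw [classInner, inv_mul_eq_iff_eq_mul₀ hG] at this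
    rw [this]
    simp [hχ.eq_iff]
  obtain ⟨u, hu⟩ : ∃ u : G → EuclideanSpace ℂ (Fin (n + 1)), ∀ g i, u g i = (χ i : G → ℂ) g :=
    ⟨fun g => WithLp.toLp 2 fun i => (χ i : G → ℂ) g, fun _ _ => rfl⟩
  obtain ⟨c, hc⟩ : ∃ c, c = (S.card : ℂ)⁻¹ • ∑ g ∈ S, u g := ⟨_, rfl⟩
  have hm : ∑ g ∈ S, u g = (S.card : ℂ) • c := by rw [hc, smul_inv_smul₀ hS]
  have h1 : ∀ g ∈ S, inner ℂ c (u g) * S.card = Nat.card G := fun g hg => by
    rw [hc, _root_.inner_smul_left, sum_inner, map_inv₀, map_natCast, mul_right_comm,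
      inv_mul_cancel₀ hS, one_mul]
    simp only [PiLp.inner_apply, RCLike.inner_apply, hu]
    rw [sum_subset (subset_univ S) fun h _ hh => ho g hg h hh, sum_comm]
    have : ∀ i, ∑ h, (χ i : G → ℂ) g * conj ((χ i : G → ℂ) h) =
        (χ i : G → ℂ) g * ∑ h, (χ 0 : G → ℂ) h * conj ((χ i : G → ℂ) h) := fun i => by
      simp [h0, mul_sum]
    simp only [this, e1]
    simp [h0]
  have h2 : ((‖c‖ ^ 2 : ℝ) : ℂ) * S.card = Nat.card G := by
    apply mul_right_cancel₀ hS
    have : ((‖c‖ ^ 2 : ℝ) : ℂ) * S.card = inner ℂ c (∑ g ∈ S, u g) := by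
      rw [hm, _root_.inner_smul_right, inner_self_eq_norm_sq_to_K, mul_comm]; simp
    rw [this, inner_sum, sum_mul, sum_congr rfl h1]
    simp [mul_comm]
  have h3 : ‖c‖ ^ 2 * S.card = Nat.card G := by exact_mod_cast h2
  let e := S.equivFin.symm
  have hsum : ∀ {β : Type} [AddCommMonoid β] (f : G → β), ∑ j, f (e j) = ∑ g ∈ S, f g :=
    fun f => (Equiv.sum_comp e fun g : S => f g).trans (sum_coe_sort S f)
  refine ⟨⟨S.card, fun j => u (e j), c, hne.card_pos, fun j => ?_, fun j => by simp [hu, h0],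
    (hsum u).trans hm, fun j => mul_right_cancel₀ hS ((h1 _ (e j).2).trans h2.symm), ?_⟩, h3⟩
  · simp only [Pt, Set.mem_ofPred_eq, hu]
    exact exists_int_poly hχ hg _
  · rw [hsum fun g => ‖u g‖ ^ 2]
    refine (sum_le_sum_of_subset_of_nonneg (subset_univ S) fun _ _ _ => by positivity).trans
      (le_of_eq ?_)
    have : ((∑ g, ‖u g‖ ^ 2 : ℝ) : ℂ) = (n + 1) * Nat.card G := by
      simp only [EuclideanSpace.norm_sq_eq, hu]
      push_cast
      simp only [← Complex.mul_conj']
      rw [sum_comm]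
      simp [e1]
    rw [mul_left_comm, mul_comm (S.card : ℝ), h3]
    exact_mod_cast this

theorem card_sylow_le (k : ℕ) : ∃ N : ℕ, ∀ (p : ℕ) [Fact p.Prime] (G : Type*) [Group G] [Finite G]
    (M : Ideal AlgInt), IsPModular p M → Nat.card (principalBlock M G) = k + 1 →
    ∀ P : Sylow p G, Nat.card P ≤ N := by
  classical
  obtain ⟨N, hN⟩ := exists_bound k
  refine ⟨N + 1, fun p _ G _ _ M hM hk P => ?_⟩
  have := Fintype.ofFinite G
  have hp := hM.1
  by_cases hdvd : p ∣ Nat.card G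
  swap
  · rw [P.card_eq_multiplicity, Nat.factorization_eq_zero_of_not_dvd hdvd]; simp
  obtain ⟨χ, hχ, h0, hr⟩ := exists_enum hk (oneIrr_mem_principalBlock (G := G) hM)
  have hB := isPBlock_principalBlock (M := M) (G := G)
  have hB1 := nrm_eSet_le_one hM hB
  have hsum : ∀ f : IrrCharacter G → ℂ,
      ∑ ψ ∈ univ.filter (· ∈ principalBlock M G), f ψ = ∑ i, f (χ i) := fun f => by
    rw [← sum_image (s := univ) (g := χ) fun i _ j _ h => hχ h]
    refine sum_congr ?_ fun _ _ => rfl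
    ext ψ
    simp [← hr]
  have hg : ∀ (m : ℕ) (hm : m.Coprime (Nat.card G)) i, gal hm (χ i) ∈ Set.range χ := fun m hm i =>
    hr ▸ gal_mem_pb hM hm (hr ▸ Set.mem_range_self i)
  have hP : Nat.card P = p ^ blockDefect p (principalBlock M G) := by
    rw [blockDefect_principal hM, P.card_eq_multiplicity]
  obtain ⟨x, hx⟩ := exists_prime_orderOf_dvd_card' p hdvd
  have n1 : (univ.filter fun g : G => ¬ p ∣ orderOf g).Nonempty := ⟨1, by simp [hp.one_lt.ne']⟩
  have n2 : (univ.filter fun g : G => p ∣ orderOf g).Nonempty := ⟨x, by simp [hx]⟩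
  obtain ⟨a, ha⟩ := exists_cfg hχ h0 hg _ n1 fun g hg h hh => by
    rw [← hsum fun ψ => (ψ : G → ℂ) g * conj ((ψ : G → ℂ) h)]
    exact weak_block_orth hM hB (by simpa using hg) (by simpa using hh)
  obtain ⟨b, hb⟩ := exists_cfg hχ h0 hg _ n2 fun g hg h hh => by
    rw [← hsum fun ψ => (ψ : G → ℂ) g * conj ((ψ : G → ℂ) h)]
    exact block_orth hM hB fun hc => not_isConj_pPart hp (x := h) (y := g) (by simpa using hh)
      (by simpa using hg) hc.symm
  have h1 := oneIrr_mem_principalBlock (G := G) hM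
  have hh := blockHeight_oneIrr (p := p) (principalBlock M G)
  obtain ⟨c, hc⟩ : ∃ c, c = ctr p (principalBlock M G) (oneIrr G) (oneIrr G) := ⟨_, rfl⟩
  have hnd : ¬ (p : ℤ) ∣ c := by
    rw [← v_intCast_eq_one_iff hM, hc, v_ctr_of_height_zero hM hB h1 h1 hh, hh, pow_zero]
  have hG : (Nat.card G : ℂ) ≠ 0 := card_ne_zero_complex
  have hgram : (c : ℂ) * Nat.card G =
      Nat.card P * (univ.filter fun g : G => ¬ p ∣ orderOf g).card := by
    rw [hc, ctr_eq hM hB1 h1, classInner, hP, card_eq_sum_ones, Nat.cast_sum, sum_filter]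
    push_cast
    field_simp
    congr 1
    exact sum_congr rfl fun g _ => by rw [reg_apply]; split_ifs <;> simp
  have hadd := card_filter_add_card_filter_not (s := univ) fun g : G => p ∣ orderOf g
  rw [card_univ, ← Nat.card_eq_fintype_card] at hadd
  have p1 := n1.card_pos
  have p2 := n2.card_pos
  have p3 : 0 < Nat.card P := Nat.card_pos
  have p4 : 0 < Nat.card G := Nat.card_pos
  generalize (univ.filter fun g : G => ¬ p ∣ orderOf g).card = s at *
  generalize (univ.filter fun g : G => p ∣ orderOf g).card = t at *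
  have hz : c * Nat.card G = Nat.card P * s := by exact_mod_cast hgram
  have hc0 : 0 < c := (pos_iff_pos_of_mul_pos (a := c) (b := Nat.card G) (by rw [hz]; positivity)).2
    (by positivity)
  obtain ⟨c, rfl⟩ := Int.eq_ofNat_of_zero_le hc0.le
  have hn : c * Nat.card G = Nat.card P * s := by exact_mod_cast hz
  have hlt : c < Nat.card P := by nlinarith
  obtain ⟨d, hd⟩ := Nat.exists_eq_add_of_le hlt.le
  have hn' : d * Nat.card G = Nat.card P * t := by
    rw [← hadd] at hn ⊢
    nlinarith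
  have hG' : (Nat.card G : ℝ) ≠ 0 := by exact_mod_cast p4.ne'
  refine (hN a b _ c d ?_ (by exact_mod_cast hc0) (by omega) hd.symm ?_ ?_).trans (Nat.le_succ _)
  · rw [hP]
    exact Nat.Coprime.pow_left _ ((Nat.Prime.coprime_iff_not_dvd hp).2 (by exact_mod_cast hnd))
  · apply mul_right_cancel₀ hG'
    have : (c : ℝ) * Nat.card G = Nat.card P * s := by exact_mod_cast hn
    rw [mul_assoc, this, mul_left_comm, ha]
  · apply mul_right_cancel₀ hG'
    have : (d : ℝ) * Nat.card G = Nat.card P * t := by exact_mod_cast hn'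
    rw [mul_assoc, this, mul_left_comm, hb]

theorem factorization_le (p : ℕ) [Fact p.Prime] (k : ℕ) : ∃ N : ℕ, ∀ (G : Type*) [Group G]
    [Finite G] (M : Ideal AlgInt), IsPModular p M → Nat.card (principalBlock M G) ≤ k →
    (Nat.card G).factorization p ≤ N := by
  choose N hN using card_sylow_le
  refine ⟨∑ j ∈ range k, N j, fun G _ _ M hM hk => ?_⟩
  have h1 : 0 < Nat.card (principalBlock M G) :=
    Nat.card_pos_iff.2 ⟨⟨⟨_, oneIrr_mem_principalBlock hM⟩⟩, inferInstance⟩
  obtain ⟨P⟩ : Nonempty (Sylow p G) := inferInstance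
  have h2 := hN (Nat.card (principalBlock M G) - 1) p G M hM (by omega) P
  rw [P.card_eq_multiplicity] at h2
  refine ((Nat.lt_pow_self hM.1.one_lt).le.trans h2).trans ?_
  exact single_le_sum (f := N) (fun _ _ => Nat.zero_le _) (mem_range.2 (by omega))

end CF.BlockB.Vor
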